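import Cfsg.Agent.H767.QO.HS
import Cfsg.Agent.S2046
import Cfsg.Agent.H95.StemCover

/-!
# Every element of a finite perfect central extension of `HS` is a commutator (helper767; S2491, S2492)
-/

set_option autoImplicit false

namespace Cfsg.Agent.H767.QO.HS

open Cfsg Subgroup
open Cfsg.Agent.H777.Ore (IsC AllC)
open Cfsg.Agent.HN.DoubleCover (φK φK_surj)
open Cfsg.Agent.H51.Mult (PCE)

universe v

theorem allC_of_surj {G H : Type*} [Group G] [Group H] (h : AllC G) (f : G →* H) (hf : Function.Surjective f) :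
    AllC H := by
  intro x
  obtain ⟨g, rfl⟩ := hf x
  obtain ⟨a, b, e⟩ := h g
  exact ⟨f a, f b, by rw [e]; simp only [map_mul, map_inv]⟩

/-- **The row `HS`**: every finite perfect central extension. -/
theorem row_hs {S : Type v} [Group S] (h : Spor.IsoHS S) (L : Type) [Group L] [Finite L] (π : L →* S) (hπ : PCE π) :
    AllC L := by
  obtain ⟨e⟩ := h
  obtain ⟨⟨f⟩, -⟩ := Cfsg.Agent.HN.AutHS.nonempty_Q
  -- the cover as an extension of `Spor.HS`
  let σ : Cfsg.Agent.HN.HS100.K →* Spor.HS := f.toMonoidHom.comp φK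
  have hs : Function.Surjective σ := f.surjective.comp φK_surj
  have hk : σ.ker = φK.ker := by
    ext x
    change f (φK x) = 1 ↔ φK x = 1
    rw [map_eq_one_iff f f.injective]
  have hc : σ.ker ≤ center _ := by rw [hk]; exact pce_K.cen
  have hfin : Finite Spor.HS := Finite.of_equiv _ f.toEquiv
  have hst : IsStemExtension σ := ⟨hs, hc, by rw [perfect_K]; exact le_top⟩
  have hcomm : commutator Spor.HS = ⊤ := by
    have h1 : (commutator Cfsg.Agent.HN.HS100.K).map σ = ⁅σ.range, σ.range⁆ := map_commutator_eq _ σ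
    rw [perfect_K, ← MonoidHom.range_eq_map, MonoidHom.range_eq_top.2 hs] at h1
    rw [commutator_def]
    exact h1.symm
  have hcard : Nat.card σ.ker = Nat.card (Multiplicative (ZMod 2)) := by
    rw [hk, Cfsg.Agent.HN.DoubleCover.card_ker Cfsg.Agent.HN.H0Basic.card_H0 Cfsg.Agent.HN.H0Basic.τ_ne_one, Nat.card_congr Multiplicative.toAdd, Nat.card_zmod]
  -- the given extension
  let π' : L →* Spor.HS := e.toMonoidHom.comp π
  have hk' : π'.ker = π.ker := by
    ext x
    change e (π x) = 1 ↔ π x = 1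
    rw [map_eq_one_iff e e.injective]
  obtain ⟨ψ, hψ, -⟩ := H95.StemCover.exists_cover' hcomm S2046.result σ hst hcard hπ.perf π'
    (e.surjective.comp hπ.surj) (by rw [hk']; exact hπ.cen)
  exact allC_of_surj allC_K ψ hψ

end Cfsg.Agent.H767.QO.HS
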